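import Cfsg.Agent.H376.WordEmb
import Cfsg.Prelude.Def_Classical
import Mathlib.GroupTheory.SpecificGroups.Alternating

/-!
# Subgroups `2³:7` in `A₈` and `Ω₈⁺(2)` (helper667, task 4116, S4907)
-/

set_option autoImplicit false

namespace Cfsg.Agent.H667.DM

open Subgroup Cfsg Matrix
open scoped commutatorElement

/-- `S` contains `2³:7` -/
def HasS7 (S : Type*) [Group S] : Prop :=
  ∃ x u : S, x ≠ 1 ∧ x * x = 1 ∧ u ^ 7 = 1 ∧ x * (u * x * u⁻¹) = u ^ 3 * x * (u ^ 3)⁻¹

theorem HasS7.of_injective {S S' : Type*} [Group S] [Group S'] (h : HasS7 S) (f : S →* S')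
    (hf : Function.Injective f) : HasS7 S' := by
  obtain ⟨x, u, h1, h2, h3, h4⟩ := h
  refine ⟨f x, f u, fun h => h1 (hf (h.trans (map_one f).symm)), by rw [← map_mul, h2, map_one],
    by rw [← map_pow, h3, map_one], ?_⟩
  have := congrArg f h4
  simpa only [map_mul, map_pow, map_inv] using this

/-- the involution -/
def x7 : SpecialLinearGroup (Fin 4) (ZMod 2) := ⟨!![1, 0, 0, 1; 0, 1, 0, 0; 0, 0, 1, 0; 0, 0, 0, 1], by decide +kernel⟩

/-- the element of order seven -/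
def u7 : SpecialLinearGroup (Fin 4) (ZMod 2) := ⟨!![0, 0, 1, 0; 1, 0, 1, 0; 0, 1, 0, 0; 0, 0, 0, 1], by decide +kernel⟩

/-- the Frobenius -/
def g7 : SpecialLinearGroup (Fin 4) (ZMod 2) := ⟨!![1, 0, 0, 0; 0, 0, 1, 0; 0, 1, 1, 0; 0, 0, 0, 1], by decide +kernel⟩

theorem x7_sq : x7 * x7 = 1 := Subtype.ext (by decide +kernel)

theorem u7_pow : u7 ^ 7 = 1 := Subtype.ext (by decide +kernel)

theorem rel7 : x7 * (u7 * x7) = u7 ^ 3 * x7 * u7 ^ 5 := Subtype.ext (by decide +kernel)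

theorem frob7 : g7 * u7 = u7 ^ 2 * g7 := Subtype.ext (by decide +kernel)

theorem com7 : x7 * u7 ≠ u7 * x7 := fun h => absurd (congrArg Subtype.val h) (by decide +kernel)

theorem rel_aux {B : Type*} [Group B] {x u : B} (hu : u ^ 7 = 1) (h : x * (u * x) = u ^ 3 * x * u ^ 5) :
    x * (u * x * u⁻¹) = u ^ 3 * x * (u ^ 3)⁻¹ := by
  have h1 : u ^ 5 * u⁻¹ = (u ^ 3)⁻¹ := by
    rw [mul_inv_eq_iff_eq_mul, eq_inv_mul_iff_mul_eq, ← pow_add, show 3 + 5 = 7 + 1 from rfl, pow_add, hu, one_mul,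
      pow_one]
  rw [← mul_assoc, h, mul_assoc _ _ u⁻¹, h1]

theorem rel7' : x7 * (u7 * x7 * u7⁻¹) = u7 ^ 3 * x7 * (u7 ^ 3)⁻¹ := rel_aux u7_pow rel7

/-- from a homomorphism to a group `L`: the derived group of `L` modulo its centre -/
theorem hasS7_of_rel {B L : Type*} [Group B] [Group L] {x u g : B} (hxx : x * x = 1) (hu7 : u ^ 7 = 1)
    (hr : x * (u * x * u⁻¹) = u ^ 3 * x * (u ^ 3)⁻¹) (hg : g * u = u ^ 2 * g) (hc : x * u ≠ u * x) (φ : B →* L)
    (hφ : Function.Injective φ) : HasS7 (commutator L ⧸ center (commutator L)) := by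
  have hx1 : x⁻¹ = x := inv_eq_of_mul_eq_one_right hxx
  have hmem : ∀ a b : B, φ ⁅a, b⁆ ∈ commutator L := fun a b => by
    rw [map_commutatorElement]
    exact commutator_mem_commutator (mem_top _) (mem_top _)
  have hu : φ u ∈ commutator L := by
    have h1 : u = ⁅g, u⁆ := by
      rw [commutatorElement_def, hg, pow_two]; group
    rw [h1]
    exact hmem _ _
  have hx : φ x ∈ commutator L := by
    have h2 : x = (u ^ 3)⁻¹ * ⁅x, u⁆ * (u ^ 3)⁻¹⁻¹ := by
      rw [commutatorElement_def, hx1]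
      have h3 : x * u * x * u⁻¹ = u ^ 3 * x * (u ^ 3)⁻¹ := by rw [← hr]; group
      rw [h3]
      group
    rw [h2, map_mul, map_mul, map_inv φ (u ^ 3)⁻¹]
    exact (inferInstance : (commutator L).Normal).conj_mem _ (hmem _ _) _
  refine ⟨QuotientGroup.mk ⟨φ x, hx⟩, QuotientGroup.mk ⟨φ u, hu⟩, ?_, ?_, ?_, ?_⟩
  · intro h
    have h1 := (QuotientGroup.eq_one_iff _).1 h
    have h2 := congrArg Subtype.val (mem_center_iff.1 h1 ⟨φ u, hu⟩)
    have h3 : φ (u * x) = φ (x * u) := by rw [map_mul, map_mul]; exact h2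
    exact hc (hφ h3).symm
  · rw [← QuotientGroup.mk_mul]
    refine (QuotientGroup.eq_one_iff _).2 ?_
    have : (⟨φ x, hx⟩ * ⟨φ x, hx⟩ : commutator L) = 1 := Subtype.ext (by
      change φ x * φ x = 1
      rw [← map_mul, hxx, map_one])
    rw [this]
    exact one_mem _
  · rw [← QuotientGroup.mk_pow]
    refine (QuotientGroup.eq_one_iff _).2 ?_
    have : (⟨φ u, hu⟩ ^ 7 : commutator L) = 1 := Subtype.ext (by
      change φ u ^ 7 = 1
      rw [← map_pow, hu7, map_one])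
    rw [this]
    exact one_mem _
  · rw [← QuotientGroup.mk_pow, ← QuotientGroup.mk_inv, ← QuotientGroup.mk_inv, ← QuotientGroup.mk_mul,
      ← QuotientGroup.mk_mul, ← QuotientGroup.mk_mul, ← QuotientGroup.mk_mul, ← QuotientGroup.mk_mul]
    congr 1
    apply Subtype.ext
    change φ x * (φ u * φ x * (φ u)⁻¹) = φ u ^ 3 * φ x * (φ u ^ 3)⁻¹
    have := congrArg φ hr
    simpa only [map_mul, map_pow, map_inv] using this

/-- from a homomorphism of `SL₄(2)` to a group `L`: the derived group of `L` modulo its centre -/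
theorem hasS7_of_hom {L : Type*} [Group L] (φ : SpecialLinearGroup (Fin 4) (ZMod 2) →* L) (hφ : Function.Injective φ) :
    HasS7 (commutator L ⧸ center (commutator L)) :=
  hasS7_of_rel x7_sq u7_pow rel7' frob7 com7 φ hφ

/-- **`Ω₈⁺(2)` contains `2³:7`.** -/
theorem hasS7_o8 {F : Type} [Field F] [Fintype F] (hF : Fintype.card F = 2) : HasS7 (POmega F (quadFormPlus 4 F)) := by
  have h2 : CharP F 2 := by
    have h1 : ((2 : ℕ) : F) = 0 := by
      have := FiniteField.cast_card_eq_zero F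
      rwa [hF] at this
    exact CharTwo.of_one_ne_zero_of_two_eq_zero one_ne_zero (by exact_mod_cast h1)
  obtain ⟨φ, hφ⟩ := H376.WordEmb.sl_plus (F := F) 4
  have hm : Function.Injective (SpecialLinearGroup.map (n := Fin 4) (ZMod.castHom (dvd_refl 2) F)) := by
    intro A B h
    apply Subtype.ext
    ext i j
    have h3 := congrArg (fun M : SpecialLinearGroup (Fin 4) F => (M : Matrix (Fin 4) (Fin 4) F) i j) h
    exact (ZMod.castHom (dvd_refl 2) F).injective h3
  exact hasS7_of_hom (φ.comp (SpecialLinearGroup.map (ZMod.castHom (dvd_refl 2) F))) (hφ.comp hm)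

end Cfsg.Agent.H667.DM
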