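import Cfsg.Agent.H667.DM.SevenAlg
import Cfsg.Agent.Lib.ComponentSolvable
import Cfsg.Agent.Blocks.GroupAlg

/-!
# Groups `2³:7` in `T / Z(T)`: nonlinear characters have degree at least seven (helper667, task 4116, S4907)
-/

set_option autoImplicit false

namespace Cfsg.Agent.H667.DM

open Subgroup Cfsg

/-- central elements act as scalars -/
theorem central_scalar {T : Type*} [Group T] {V : Type*} [AddCommGroup V] [Module ℂ V] [FiniteDimensional ℂ V]
    (ρ : Representation ℂ T V) (hρ : ρ.IsIrreducible) {z : T} (hz : z ∈ center T) :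
    ∃ c : ℂ, ρ z = c • (1 : Module.End ℂ V) := by
  have key : ∀ (g : T) (v : V), (ρ z) (ρ g v) = ρ g ((ρ z) v) := by
    intro g v
    have h1 : ρ z * ρ g = ρ g * ρ z := by rw [← map_mul, ← map_mul, mem_center_iff.1 hz g]
    exact LinearMap.congr_fun h1 v
  let f : Representation.IntertwiningMap ρ ρ := (ρ z).intertwiningMap_of_isIntertwiningMap ρ ρ key
  obtain ⟨c, hc⟩ :=
    (Representation.IsIrreducible.algebraMap_intertwiningMap_bijective_of_isAlgClosed (ρ := ρ)).2 f
  refine ⟨c, ?_⟩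
  ext v
  have h1 : f v = (algebraMap ℂ (Representation.IntertwiningMap ρ ρ) c) v := by rw [hc]
  have h2 : f v = ρ z v := rfl
  rw [← h2, h1]
  rfl

variable {T : Type*} [Group T]

/-- **A nontrivial irreducible representation of a quasisimple group `T` such that `T / Z(T)` contains `2³:7` has degree at
least seven.** -/
theorem seven_le (hT : IsQuasisimple T) (x u : T ⧸ center T) (hx : x ≠ 1) (hxx : x * x = 1) (hu : u ^ 7 = 1)
    (h : x * (u * x * u⁻¹) = u ^ 3 * x * (u ^ 3)⁻¹) {V : Type*} [AddCommGroup V] [Module ℂ V] [FiniteDimensional ℂ V]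
    (ρ : Representation ℂ T V) (hρ : ρ.IsIrreducible) (hnt : ∃ t, ρ t ≠ 1) : 7 ≤ Module.finrank ℂ V := by
  obtain ⟨X, rfl⟩ := QuotientGroup.mk_surjective x
  obtain ⟨U, rfl⟩ := QuotientGroup.mk_surjective u
  have hnt' : Nontrivial (Module.End ℂ V) := by
    obtain ⟨t, ht⟩ := hnt
    exact ⟨_, _, ht⟩
  set a : ℕ → Module.End ℂ V := fun i => ρ (U ^ i * X * (U ^ i)⁻¹) with ha
  have hXX : X * X ∈ center T := (QuotientGroup.eq_one_iff _).1 hxx
  have hU7 : U ^ 7 ∈ center T := (QuotientGroup.eq_one_iff _).1 hu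
  have hrel : (U ^ 3 * X * (U ^ 3)⁻¹)⁻¹ * (X * (U * X * U⁻¹)) ∈ center T := by
    rw [← QuotientGroup.eq]
    exact h.symm
  obtain ⟨s, hs⟩ := central_scalar ρ hρ hXX
  obtain ⟨c, hc⟩ := central_scalar ρ hρ hrel
  have hs0 : s ≠ 0 := by
    rintro rfl
    rw [zero_smul] at hs
    have h1 : ρ (X * X) * ρ (X * X)⁻¹ = 1 := by rw [← map_mul, mul_inv_cancel, map_one]
    rw [hs, zero_mul] at h1
    exact zero_ne_one h1
  have hc0 : c ≠ 0 := by
    rintro rfl
    rw [zero_smul] at hc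
    have h1 : ρ ((U ^ 3 * X * (U ^ 3)⁻¹)⁻¹ * (X * (U * X * U⁻¹))) * ρ ((U ^ 3 * X * (U ^ 3)⁻¹)⁻¹ * (X * (U * X * U⁻¹)))⁻¹ =
      1 := by rw [← map_mul, mul_inv_cancel, map_one]
    rw [hc, zero_mul] at h1
    exact zero_ne_one h1
  have hconj : ∀ (i : ℕ) (g : T), ρ (U ^ i * g * (U ^ i)⁻¹) = ρ (U ^ i) * ρ g * ρ (U ^ i)⁻¹ := fun i g => by
    rw [map_mul, map_mul]
  have hii : ∀ (i : ℕ), ρ (U ^ i) * ρ (U ^ i)⁻¹ = 1 := fun i => by rw [← map_mul, mul_inv_cancel, map_one]
  have h1 : ∀ i, a i * a i = s • (1 : Module.End ℂ V) := by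
    intro i
    rw [ha]
    simp only
    rw [← map_mul, show U ^ i * X * (U ^ i)⁻¹ * (U ^ i * X * (U ^ i)⁻¹) = U ^ i * (X * X) * (U ^ i)⁻¹ by group, hconj, hs,
      mul_smul_comm, mul_one, smul_mul_assoc, hii]
  have h2 : ∀ i, a i * a (i + 1) = c • a (i + 3) := by
    intro i
    rw [ha]
    simp only
    rw [← map_mul, show U ^ i * X * (U ^ i)⁻¹ * (U ^ (i + 1) * X * (U ^ (i + 1))⁻¹) =
      U ^ (i + 3) * X * (U ^ (i + 3))⁻¹ * (U ^ i * ((U ^ 3 * X * (U ^ 3)⁻¹)⁻¹ * (X * (U * X * U⁻¹))) * (U ^ i)⁻¹) by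
        rw [pow_add, pow_add]; group, map_mul, hconj i, hc, mul_smul_comm, mul_one, smul_mul_assoc, hii, mul_smul_comm,
      mul_one]
  have h7 : ∀ i, a (i + 7) = a i := by
    intro i
    rw [ha]
    simp only
    congr 1
    have := mem_center_iff.1 hU7 (X * (U ^ 7)⁻¹)
    rw [pow_add]
    have h9 : U ^ 7 * X * (U ^ 7)⁻¹ = X := by
      rw [← mem_center_iff.1 hU7 X, mul_assoc, mul_inv_cancel, mul_one]
    calc U ^ i * U ^ 7 * X * (U ^ i * U ^ 7)⁻¹ = U ^ i * (U ^ 7 * X * (U ^ 7)⁻¹) * (U ^ i)⁻¹ := by group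
      _ = U ^ i * X * (U ^ i)⁻¹ := by rw [h9]
  have hsc : s = c ^ 2 := sq_eq hs0 hc0 h1 h2 h7
  -- normalize
  set A : ℕ → Module.End ℂ V := fun i => c⁻¹ • a i with hA
  have g1 : ∀ i, A i * A i = 1 := by
    intro i
    rw [hA]
    simp only
    rw [smul_mul_smul_comm, h1, smul_smul, hsc, show c⁻¹ * c⁻¹ * c ^ 2 = 1 by field_simp, one_smul]
  have g2 : ∀ i, A i * A (i + 1) = A (i + 3) := by
    intro i
    rw [hA]
    simp only
    rw [smul_mul_smul_comm, h2, smul_smul, show c⁻¹ * c⁻¹ * c = c⁻¹ by field_simp]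
  have gt : ∀ i, LinearMap.trace ℂ V (A i) = LinearMap.trace ℂ V (A 0) := by
    intro i
    rw [hA]
    simp only
    rw [map_smul, map_smul]
    congr 1
    rw [ha]
    simp only
    rw [pow_zero, one_mul, inv_one, mul_one, hconj, LinearMap.trace_mul_comm, ← mul_assoc, ← map_mul, inv_mul_cancel,
      map_one, one_mul]
  rcases seven_core g1 g2 gt with h0 | h0
  swap
  · exact h0
  exfalso
  -- `X` acts as a scalar
  have hX : ρ X = c • (1 : Module.End ℂ V) := by
    have h3 : A 0 = c⁻¹ • ρ X := by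
      rw [hA]
      simp only
      rw [ha]
      simp only
      rw [pow_zero, one_mul, inv_one, mul_one]
    rw [← h0, h3, smul_smul, mul_inv_cancel₀ hc0, one_smul]
  have hker : ρ.ker ≤ center T := by
    rcases Lib.ComponentSolvable.quasisimple_normal_cases hT (N := ρ.ker) inferInstance with h3 | h3
    · exfalso
      obtain ⟨t, ht⟩ := hnt
      have : t ∈ ρ.ker := h3 ▸ mem_top t
      exact ht this
    · exact h3
  have hXc : (QuotientGroup.mk X : T ⧸ center T) ∈ center (T ⧸ center T) := by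
    rw [mem_center_iff]
    intro g
    obtain ⟨g, rfl⟩ := QuotientGroup.mk_surjective g
    rw [← QuotientGroup.mk_mul, ← QuotientGroup.mk_mul, QuotientGroup.eq]
    apply hker
    rw [MonoidHom.mem_ker]
    have e1 : ρ (g * X) = ρ (X * g) := by
      rw [map_mul, map_mul, hX, mul_smul_comm, smul_mul_assoc, mul_one, one_mul]
    rw [map_mul, ← e1, ← map_mul, inv_mul_cancel, map_one]
  have := hT.2
  rcases Subgroup.Normal.eq_bot_or_eq_top (H := center (T ⧸ center T)) inferInstance with h3 | h3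
  · rw [h3] at hXc
    exact hx hXc
  · -- the quotient is abelian and perfect
    have hp := hT.1
    have h4 : commutator (T ⧸ center T) = ⊥ := by
      rw [commutator_def, Subgroup.commutator_eq_bot_iff_le_centralizer, ← h3]
      exact fun y hy => Subgroup.mem_centralizer_iff.2 fun z hz => (mem_center_iff.1 hy z)
    have h5 : commutator (T ⧸ center T) = ⊤ := by
      have h6 := Subgroup.map_commutator (⊤ : Subgroup T) ⊤ (QuotientGroup.mk' (center T))
      rw [← MonoidHom.range_eq_map, MonoidHom.range_eq_top.2 (QuotientGroup.mk'_surjective _), ← commutator_def,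
        ← commutator_def, hp.commutator_eq_top, ← MonoidHom.range_eq_map,
        MonoidHom.range_eq_top.2 (QuotientGroup.mk'_surjective _)] at h6
      exact h6.symm
    have h6 : (QuotientGroup.mk X : T ⧸ center T) ∈ (⊥ : Subgroup (T ⧸ center T)) := by
      rw [← h4, h5]
      exact mem_top _
    exact hx h6

end Cfsg.Agent.H667.DM
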