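import Mathlib.LinearAlgebra.Trace
import Mathlib.LinearAlgebra.Projection
import Mathlib.Analysis.Complex.Basic

/-!
# The group `2³:7` in projective representations: the algebra (helper667, task 4116, S4907)

`a i` (`i : ℕ`) are conjugates of one element under an element of order seven, `a i * a i = s`,
`a i * a (i+1) = c • a (i+3)`. Then `s = c ^ 2`, and either `a 0` is a scalar or the degree is at least seven.
-/

set_option autoImplicit false

namespace Cfsg.Agent.H667.DM

section Alg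

variable {R : Type*} [Ring R] [Algebra ℂ R] {a : ℕ → R} {s c : ℂ}

theorem com_one (hs : s ≠ 0) (hc : c ≠ 0) (h1 : ∀ i, a i * a i = s • (1 : R)) (h2 : ∀ i, a i * a (i + 1) = c • a (i + 3))
    (i : ℕ) : a i * a (i + 1) = (s / c ^ 2) • (a (i + 1) * a i) := by
  have h3 : a i * (a i * a (i + 1) * (a i * a (i + 1))) * a (i + 1) = (c ^ 2 * s) • (a i * a (i + 1)) := by
    rw [h2 i, smul_mul_smul_comm, h1, smul_smul, mul_smul_comm, smul_mul_assoc, mul_one, ← h2 i]
    congr 1
    ring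
  have h4 : a i * (a i * a (i + 1) * (a i * a (i + 1))) * a (i + 1) = (s ^ 2) • (a (i + 1) * a i) := by
    rw [show a i * (a i * a (i + 1) * (a i * a (i + 1))) * a (i + 1) =
      (a i * a i) * (a (i + 1) * a i) * (a (i + 1) * a (i + 1)) by noncomm_ring, h1, h1, smul_mul_assoc, one_mul,
      mul_smul_comm, mul_one, smul_smul]
    congr 1
    ring
  have h5 : (c ^ 2 * s) • (a i * a (i + 1)) = (s ^ 2) • (a (i + 1) * a i) := h3.symm.trans h4
  have h6 := congrArg (fun x => ((c ^ 2 * s)⁻¹ : ℂ) • x) h5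
  simp only [smul_smul] at h6
  rw [inv_mul_cancel₀ (mul_ne_zero (pow_ne_zero 2 hc) hs), one_smul] at h6
  rw [h6]
  congr 1
  field_simp

theorem ne_zero' [Nontrivial R] (hs : s ≠ 0) (h1 : ∀ i, a i * a i = s • (1 : R)) (i : ℕ) : a i ≠ 0 := by
  intro h
  have := h1 i
  rw [h, mul_zero] at this
  exact hs ((smul_eq_zero.1 this.symm).resolve_right one_ne_zero)

/-- `s = c ^ 2` -/
theorem sq_eq [Nontrivial R] (hs : s ≠ 0) (hc : c ≠ 0) (h1 : ∀ i, a i * a i = s • (1 : R))
    (h2 : ∀ i, a i * a (i + 1) = c • a (i + 3)) (h7 : ∀ i, a (i + 7) = a i) : s = c ^ 2 := by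
  set β : ℂ := s / c ^ 2 with hβ
  have hC1 : ∀ i, a i * a (i + 1) = β • (a (i + 1) * a i) := com_one hs hc h1 h2
  have hn := ne_zero' hs h1
  have hcan : ∀ {x : R} {t : ℂ}, c • x = (t * c) • x → x ≠ 0 → t = 1 := by
    intro x t h hx
    have h' : (c - t * c) • x = 0 := by rw [sub_smul, h, sub_self]
    have h'' := (smul_eq_zero.1 h').resolve_right hx
    have : c * (1 - t) = 0 := by linear_combination h''
    rcases mul_eq_zero.1 this with h3 | h3
    · exact absurd h3 hc
    · linear_combination -h3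
  have hinj : ∀ {x y : R}, c • x = c • y → x = y := fun h => by
    have := congrArg (fun z => c⁻¹ • z) h
    simpa [smul_smul, inv_mul_cancel₀ hc] using this
  -- `β ^ 2 = 1`
  have hβ2 : β ^ 2 = 1 := by
    have e1 : a 0 * (a 0 * a 1) = s • a 1 := by rw [← mul_assoc, h1, smul_mul_assoc, one_mul]
    have e2 : a 0 * (a 0 * a 1) = (β ^ 2 * s) • a 1 := by
      rw [hC1 0, mul_smul_comm, ← mul_assoc, hC1 0, smul_mul_assoc, smul_smul, mul_assoc, h1, mul_smul_comm, mul_one,
        smul_smul]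
      congr 1
      ring
    have e3 : (s - β ^ 2 * s) • a 1 = 0 := by rw [sub_smul, ← e1, ← e2, sub_self]
    have e4 := (smul_eq_zero.1 e3).resolve_right (hn 1)
    have : s * (1 - β ^ 2) = 0 := by linear_combination e4
    rcases mul_eq_zero.1 this with h3 | h3
    · exact absurd h3 hs
    · linear_combination -h3
  have hC1' : ∀ i, a (i + 1) * a i = β • (a i * a (i + 1)) := fun i => by
    rw [hC1 i, smul_smul, ← pow_two, hβ2, one_smul]
  have hC2 : ∀ i, a (i + 1) * a (i + 3) = β • (a (i + 3) * a (i + 1)) := by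
    intro i
    apply hinj
    rw [← mul_smul_comm, ← h2, ← mul_assoc, hC1' i, smul_comm c β, ← smul_mul_assoc c, ← h2, smul_mul_assoc]
  have hC3 : ∀ i, a i * a (i + 3) = β • (a (i + 3) * a i) := by
    intro i
    apply hinj
    rw [← mul_smul_comm, ← h2, smul_comm c β, ← smul_mul_assoc c, ← h2, mul_assoc (a i), hC1' i, mul_smul_comm,
      smul_smul, ← pow_two, hβ2, one_smul]
  have e7 : a 7 = a 0 := h7 0
  have e9 : a 9 = a 2 := h7 2
  have hA : a 0 * a 2 = β • (a 2 * a 0) := by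
    have := hC2 6
    rwa [show (6 + 1 : ℕ) = 7 from rfl, show (6 + 3 : ℕ) = 9 from rfl, e7, e9] at this
  have hB : a 0 * a 5 = a 5 * a 0 := by
    apply hinj
    have h25 : c • a 5 = a 2 * a 3 := (h2 2).symm
    rw [← mul_smul_comm, ← smul_mul_assoc, h25, ← mul_assoc, hA, smul_mul_assoc, mul_assoc, hC3 0, mul_smul_comm,
      smul_smul, ← pow_two, hβ2, one_smul, ← mul_assoc]
  have hC : a 5 * a 0 = β • (a 0 * a 5) := by
    have := hC2 4
    rwa [show (4 + 1 : ℕ) = 5 from rfl, show (4 + 3 : ℕ) = 7 from rfl, e7] at this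
  have h50 : a 5 * a 0 ≠ 0 := by
    intro h
    have : a 5 * (a 5 * a 0) * a 0 = (s * s) • (1 : R) := by
      rw [show a 5 * (a 5 * a 0) * a 0 = (a 5 * a 5) * (a 0 * a 0) by noncomm_ring, h1, h1, smul_mul_smul_comm,
        mul_one]
    rw [h, mul_zero, zero_mul] at this
    exact (mul_ne_zero hs hs) ((smul_eq_zero.1 this.symm).resolve_right one_ne_zero)
  have hβ1 : β = 1 := by
    rw [hB] at hC
    have : (1 - β) • (a 5 * a 0) = 0 := by rw [sub_smul, one_smul, ← hC, sub_self]
    have := (smul_eq_zero.1 this).resolve_right h50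
    linear_combination -this
  rw [hβ, div_eq_one_iff_eq (pow_ne_zero 2 hc)] at hβ1
  exact hβ1

end Alg

section Trace

open Module

variable {d : ℕ}

/-- the trace of an idempotent -/
theorem trace_idem {V : Type*} [AddCommGroup V] [Module ℂ V] [FiniteDimensional ℂ V] {e : Module.End ℂ V}
    (he : e * e = e) : ∃ n : ℕ, LinearMap.trace ℂ V e = n ∧ (n = 0 → e = 0) := by
  have hp : LinearMap.IsProj (LinearMap.range e) e := by
    refine ⟨fun x => LinearMap.mem_range_self e x, ?_⟩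
    rintro x ⟨y, rfl⟩
    exact LinearMap.congr_fun he y
  refine ⟨finrank ℂ (LinearMap.range e), ?_, ?_⟩
  · exact LinearMap.IsProj.trace hp
  · intro h
    have h1 : LinearMap.range e = ⊥ := Submodule.finrank_eq_zero.1 h
    exact LinearMap.range_eq_bot.1 h1

/-- **The trace argument.** -/
theorem seven_core {V : Type*} [AddCommGroup V] [Module ℂ V] [FiniteDimensional ℂ V] {A : ℕ → Module.End ℂ V}
    (h1 : ∀ i, A i * A i = 1) (h2 : ∀ i, A i * A (i + 1) = A (i + 3))
    (ht : ∀ i, LinearMap.trace ℂ V (A i) = LinearMap.trace ℂ V (A 0)) :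
    A 0 = 1 ∨ 7 ≤ finrank ℂ V := by
  set t : ℂ := LinearMap.trace ℂ V (A 0) with htd
  have hcom : ∀ i, A i * A (i + 1) = A (i + 1) * A i := by
    intro i
    have h3 : A i * (A i * A (i + 1) * (A i * A (i + 1))) * A (i + 1) = A i * A (i + 1) := by
      rw [h2 i, h1, mul_one, ← h2 i]
    rw [← h3, show A i * (A i * A (i + 1) * (A i * A (i + 1))) * A (i + 1) =
      (A i * A i) * (A (i + 1) * A i) * (A (i + 1) * A (i + 1)) by noncomm_ring, h1, h1, one_mul, mul_one]
  have e01 : A 0 * A 1 = A 3 := h2 0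
  have e12 : A 1 * A 2 = A 4 := h2 1
  have e34 : A 3 * A 4 = A 6 := h2 3
  have e23 : A 2 * A 3 = A 5 := h2 2
  have e10 : A 1 * A 0 = A 3 := by rw [← hcom 0]; exact e01
  have e21 : A 2 * A 1 = A 4 := by rw [← hcom 1]; exact e12
  have e32 : A 3 * A 2 = A 5 := by rw [← hcom 2]; exact e23
  have e02 : A 0 * A 2 = A 6 := by
    -- `A 3 * A 4 = A 0 * A 1 * (A 1 * A 2)`
    rw [← e34, ← e01, ← e12, mul_assoc, ← mul_assoc (A 1) (A 1), h1, one_mul]
  have e20 : A 2 * A 0 = A 6 := by
    -- `A 6 * A 6 = 1`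
    have h3 : A 0 * (A 0 * A 2 * (A 0 * A 2)) * A 2 = A 0 * A 2 := by
      rw [e02, h1, mul_one, e02]
    rw [← e02, ← h3, show A 0 * (A 0 * A 2 * (A 0 * A 2)) * A 2 = (A 0 * A 0) * (A 2 * A 0) * (A 2 * A 2) by
      noncomm_ring, h1, h1, one_mul, mul_one]
  have e012 : A 0 * A 1 * A 2 = A 5 := by rw [e01, e32]
  -- the idempotent for the eigenvalues `-1, 1, 1`
  have hidem : ∀ ε : ℂ, ε ^ 2 = 1 → ∃ n : ℕ, (Module.finrank ℂ V + ε * t + t + t + ε * t + ε * t + t + ε * t : ℂ) = 8 * n ∧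
      (n = 0 → ((8 : ℂ)⁻¹ • ((1 + ε • A 0) * ((1 + A 1) * (1 + A 2)))) = 0) := by
    intro ε hε
    have c1 : Commute (1 + ε • A 0) (1 + A 1) := by
      have : Commute (A 0) (A 1) := e01.trans e10.symm
      exact (Commute.add_left (Commute.one_left _) ((Commute.add_right (Commute.one_right _) this).smul_left ε))
    have c2 : Commute (1 + ε • A 0) (1 + A 2) := by
      have : Commute (A 0) (A 2) := e02.trans e20.symm
      exact (Commute.add_left (Commute.one_left _) ((Commute.add_right (Commute.one_right _) this).smul_left ε))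
    have c3 : Commute (1 + A 1) (1 + A 2) := by
      have : Commute (A 1) (A 2) := e12.trans e21.symm
      exact (Commute.add_left (Commute.one_left _) ((Commute.add_right (Commute.one_right _) this)))
    have q0 : (1 + ε • A 0) * (1 + ε • A 0) = (2 : ℂ) • (1 + ε • A 0) := by
      rw [mul_add, mul_one, add_mul, one_mul, smul_mul_smul_comm, h1, ← pow_two, hε, one_smul, two_smul]
      abel
    have q : ∀ i, (1 + A i) * (1 + A i) = (2 : ℂ) • (1 + A i) := by
      intro i
      rw [mul_add, mul_one, add_mul, one_mul, h1, two_smul]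
      abel
    have hq : ((8 : ℂ)⁻¹ • ((1 + ε • A 0) * ((1 + A 1) * (1 + A 2)))) * ((8 : ℂ)⁻¹ • ((1 + ε • A 0) * ((1 + A 1) * (1 + A 2)))) =
        ((8 : ℂ)⁻¹ • ((1 + ε • A 0) * ((1 + A 1) * (1 + A 2)))) := by
      rw [smul_mul_smul_comm]
      have c4 : Commute ((1 + A 1) * (1 + A 2)) (1 + ε • A 0) := (Commute.mul_right c1 c2).symm
      rw [show (1 + ε • A 0) * ((1 + A 1) * (1 + A 2)) * ((1 + ε • A 0) * ((1 + A 1) * (1 + A 2))) =
        (1 + ε • A 0) * (((1 + A 1) * (1 + A 2)) * (1 + ε • A 0)) * ((1 + A 1) * (1 + A 2)) by noncomm_ring, c4.eq,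
        show (1 + ε • A 0) * ((1 + ε • A 0) * ((1 + A 1) * (1 + A 2))) * ((1 + A 1) * (1 + A 2)) =
        ((1 + ε • A 0) * (1 + ε • A 0)) * ((1 + A 1) * ((1 + A 2) * (1 + A 1)) * (1 + A 2)) by noncomm_ring, ← c3.eq,
        show (1 + A 1) * ((1 + A 1) * (1 + A 2)) * (1 + A 2) = ((1 + A 1) * (1 + A 1)) * ((1 + A 2) * (1 + A 2)) by
          noncomm_ring, q0, q, q, smul_mul_smul_comm, smul_mul_smul_comm, smul_smul]
      congr 1
      norm_num
    obtain ⟨n, hn, hn0⟩ := trace_idem hq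
    refine ⟨n, ?_, hn0⟩
    rw [← hn, map_smul]
    have hexp : (1 + ε • A 0) * ((1 + A 1) * (1 + A 2)) =
        1 + ε • A 0 + A 1 + A 2 + ε • A 3 + ε • A 6 + A 4 + ε • A 5 := by
      rw [← e012, ← e12, ← e02, ← e01]
      simp only [mul_add, add_mul, one_mul, mul_one, smul_mul_assoc, mul_assoc]
      abel
    rw [hexp]
    simp only [map_add, map_smul, smul_eq_mul, LinearMap.trace_one, ht]
    ring
  obtain ⟨n, hn, -⟩ := hidem (-1) (by norm_num)
  obtain ⟨m, hm, -⟩ := hidem 1 (by norm_num)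
  rcases Nat.eq_zero_or_pos n with h0 | h0
  · left
    subst h0
    have ht' : t = finrank ℂ V := by
      push_cast at hn
      linear_combination (-1) * hn
    have he : ((2 : ℂ)⁻¹ • (1 - A 0)) * ((2 : ℂ)⁻¹ • (1 - A 0)) = (2 : ℂ)⁻¹ • (1 - A 0) := by
      rw [smul_mul_smul_comm, show (1 - A 0) * (1 - A 0) = (2 : ℂ) • (1 - A 0) by
        rw [mul_sub, mul_one, sub_mul, one_mul, h1, two_smul]; abel, smul_smul]
      congr 1
      norm_num
    obtain ⟨k, hk, hk0⟩ := trace_idem he
    rw [map_smul, map_sub, LinearMap.trace_one, ← htd, ht', sub_self, smul_zero] at hk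
    have h3 := hk0 (by exact_mod_cast hk.symm)
    have h4 : (1 - A 0) = 0 := by
      rcases smul_eq_zero.1 h3 with h | h
      · norm_num at h
      · exact h
    exact (sub_eq_zero.1 h4).symm
  · right
    have h3 : (finrank ℂ V : ℂ) = m + 7 * n := by
      linear_combination (1 / 8 : ℂ) * hm + (7 / 8 : ℂ) * hn
    have h4 : finrank ℂ V = m + 7 * n := by exact_mod_cast h3
    omega

end Trace

end Cfsg.Agent.H667.DM
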